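import Cfsg.Agent.Lib.Kondo.W

/-!
The group `D₈ ^ κ` in Heisenberg coordinates.
-/

set_option autoImplicit false

namespace Cfsg.Lib.Alt

open Equiv Subgroup Cfsg.Lib.Kondo

/-- the product of dihedral groups of order eight -/
@[ext] structure HJ (κ : Type) where
  a : κ → ZMod 2
  d : κ → ZMod 2
  v : κ → ZMod 2

theorem vadd {κ : Type} (a : κ → ZMod 2) : a + a = 0 := funext fun i => z2_add (a i)

namespace HJ

variable {κ : Type}

instance : Mul (HJ κ) := ⟨fun x y => ⟨x.a + y.a + y.v * x.d, x.d + y.d, x.v + y.v⟩⟩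
instance : One (HJ κ) := ⟨⟨0, 0, 0⟩⟩
instance : Inv (HJ κ) := ⟨fun x => ⟨x.a + x.v * x.d, x.d, x.v⟩⟩

@[simp] theorem mul_a (x y : HJ κ) : (x * y).a = x.a + y.a + y.v * x.d := rfl
@[simp] theorem mul_d (x y : HJ κ) : (x * y).d = x.d + y.d := rfl
@[simp] theorem mul_v (x y : HJ κ) : (x * y).v = x.v + y.v := rfl
@[simp] theorem one_a : (1 : HJ κ).a = 0 := rfl
@[simp] theorem one_d : (1 : HJ κ).d = 0 := rfl
@[simp] theorem one_v : (1 : HJ κ).v = 0 := rfl
@[simp] theorem inv_a (x : HJ κ) : x⁻¹.a = x.a + x.v * x.d := rfl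
@[simp] theorem inv_d (x : HJ κ) : x⁻¹.d = x.d := rfl
@[simp] theorem inv_v (x : HJ κ) : x⁻¹.v = x.v := rfl

instance : Group (HJ κ) :=
  Group.ofLeftAxioms (fun x y z => by ext i <;> simp <;> ring)
    (fun x => by ext i <;> simp) (fun x => by
      ext i
      · simp only [mul_a, inv_a, inv_d, Pi.add_apply, Pi.mul_apply, one_a, Pi.zero_apply]
        linear_combination z2_add (x.a i) + z2_add (x.v i * x.d i)
      · simp [z2_add]
      · simp [z2_add])

instance [Finite κ] : Finite (HJ κ) :=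
  Finite.of_injective (fun x : HJ κ => (x.a, x.d, x.v)) fun _ _ h =>
    HJ.ext (congrArg Prod.fst h) (congrArg (·.2.1) h) (congrArg (·.2.2) h)

theorem conj (x y : HJ κ) : x * y * x⁻¹ = ⟨y.a + y.v * x.d + x.v * y.d, y.d, y.v⟩ := by
  ext i
  · simp only [mul_a, inv_a, inv_v, mul_d, Pi.add_apply, Pi.mul_apply]
    linear_combination z2_add (x.a i) + z2_add (x.v i * x.d i)
  · simp only [mul_d, inv_d, Pi.add_apply]
    linear_combination z2_add (x.d i)
  · simp only [mul_v, inv_v, Pi.add_apply]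
    linear_combination z2_add (x.v i)

theorem comm {x y : HJ κ} : x * y = y * x ↔ y.v * x.d = x.v * y.d := by
  rw [HJ.ext_iff, mul_a, mul_a, add_comm y.a x.a, add_right_inj]
  exact ⟨fun h => h.1, fun h => ⟨h, add_comm _ _, add_comm _ _⟩⟩

theorem sq (x : HJ κ) : x * x = ⟨x.v * x.d, 0, 0⟩ := by
  ext i <;> simp [z2_add]

theorem sq_eq_one {x : HJ κ} : x * x = 1 ↔ x.v * x.d = 0 := by
  rw [sq, HJ.ext_iff]; simp

theorem pow_four (x : HJ κ) : x ^ 4 = 1 := by
  rw [show 4 = 2 * 2 from rfl, pow_mul, pow_two, pow_two, sq x, sq_eq_one]; simp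

theorem isPGroup : IsPGroup 2 (HJ κ) := fun x => ⟨2, x.pow_four⟩

end HJ

variable {κ : Type}

/-- the central elements -/
abbrev zq (a : κ → ZMod 2) : HJ κ := ⟨a, 0, 0⟩

theorem zq_add (a b : κ → ZMod 2) : zq (a + b) = zq a * zq b := by ext <;> simp

theorem zq_zero : zq (0 : κ → ZMod 2) = 1 := rfl

theorem zq_comm (a : κ → ZMod 2) (x : HJ κ) : x * zq a = zq a * x := by rw [HJ.comm]; simp

theorem zq_conj (a : κ → ZMod 2) (x : HJ κ) : x * zq a * x⁻¹ = zq a := by
  rw [zq_comm, mul_inv_cancel_right]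

theorem mul_zq (x : HJ κ) (b : κ → ZMod 2) : x * zq b = ⟨x.a + b, x.d, x.v⟩ := by ext <;> simp

/-- the elementary abelian subgroups of maximal rank -/
def HB (β : κ → ZMod 2) : Subgroup (HJ κ) where
  carrier := {x | β * x.d = 0 ∧ (1 + β) * x.v = 0}
  one_mem' := by simp
  mul_mem' := by
    rintro x y ⟨h1, h2⟩ ⟨h3, h4⟩
    exact ⟨by rw [HJ.mul_d, mul_add, h1, h3, add_zero], by rw [HJ.mul_v, mul_add, h2, h4, add_zero]⟩
  inv_mem' := id

theorem mem_HB {β : κ → ZMod 2} {x : HJ κ} :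
    x ∈ HB β ↔ ∀ i, (β i = 1 → x.d i = 0) ∧ (β i = 0 → x.v i = 0) := by
  change _ ∧ _ ↔ _
  rw [funext_iff, funext_iff, ← forall_and]
  refine forall_congr' fun i => ?_
  simp only [Pi.mul_apply, Pi.add_apply, Pi.one_apply, Pi.zero_apply]
  generalize β i = b
  generalize x.d i = d
  generalize x.v i = v
  revert b d v; decide

theorem mem_HB_zero {x : HJ κ} : x ∈ HB 0 ↔ x.v = 0 := by simp [mem_HB, funext_iff]

theorem mem_HB_one {x : HJ κ} : x ∈ HB 1 ↔ x.d = 0 := by simp [mem_HB, funext_iff]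

theorem zq_mem (a β : κ → ZMod 2) : zq a ∈ HB β := by simp [mem_HB]

theorem HB_mul {β : κ → ZMod 2} {x y : HJ κ} (hx : x ∈ HB β) (hy : y ∈ HB β) : x.v * y.d = 0 := by
  funext i
  rcases z2_cases (β i) with h | h
  · simp [(mem_HB.mp hx i).2 h]
  · simp [(mem_HB.mp hy i).1 h]

theorem HB_comm {β : κ → ZMod 2} {x y : HJ κ} (hx : x ∈ HB β) (hy : y ∈ HB β) : x * y = y * x := by
  rw [HJ.comm, HB_mul hx hy, HB_mul hy hx]

theorem HB_sq {β : κ → ZMod 2} {x : HJ κ} (hx : x ∈ HB β) : x * x = 1 := by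
  rw [HJ.sq_eq_one, HB_mul hx hx]

theorem HB_conj {β : κ → ZMod 2} (x : HJ κ) {y : HJ κ} (hy : y ∈ HB β) : x * y * x⁻¹ ∈ HB β := by
  rw [HJ.conj]; exact hy

theorem card_HB [Fintype κ] (β : κ → ZMod 2) : Nat.card (HB β) = 4 ^ Fintype.card κ := by
  let f : (κ → ZMod 2) × (κ → ZMod 2) → HB β := fun p => ⟨⟨p.1, (1 + β) * p.2, β * p.2⟩,
    mem_HB.mpr fun i => ⟨fun h => by simp [h, z2_add], fun h => by simp [h]⟩⟩
  have hf : Function.Bijective f := by
    constructor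
    · rintro ⟨a, u⟩ ⟨a', u'⟩ h
      obtain ⟨h1, h2, h3⟩ := HJ.ext_iff.mp (congrArg Subtype.val h)
      refine Prod.ext h1 ?_
      simp only [f] at h2 h3 ⊢
      linear_combination h2 - h3
    · rintro ⟨x, hx⟩
      refine ⟨(x.a, x.d + x.v), Subtype.ext (HJ.ext rfl (funext fun i => ?_) (funext fun i => ?_))⟩
      all_goals
        have := mem_HB.mp hx i
        rcases z2_cases (β i) with h | h <;> simp_all [f, z2_add]
  rw [← Nat.card_eq_of_bijective f hf, Nat.card_prod, Nat.card_fun]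
  simp [← mul_pow]

theorem comm_of_sq {G : Type*} [Group G] {K : Subgroup G} (h2 : ∀ x ∈ K, x * x = 1) {x y : G}
    (hx : x ∈ K) (hy : y ∈ K) : x * y = y * x := by
  have h1 : ∀ z ∈ K, z⁻¹ = z := fun z hz => inv_eq_of_mul_eq_one_left (h2 z hz)
  rw [← h1 _ (mul_mem hx hy), mul_inv_rev, h1 x hx, h1 y hy]

/-- an elementary abelian subgroup lies in some `B_β` -/
theorem exists_le_HB {K : Subgroup (HJ κ)} (h2 : ∀ x ∈ K, x * x = 1) : ∃ β, K ≤ HB β := by
  classical
  refine ⟨fun i => if ∃ y ∈ K, y.v i = 1 then 1 else 0, fun x hx => mem_HB.mpr fun i => ?_⟩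
  split_ifs with h
  · obtain ⟨y, h1, h3⟩ := h
    have e1 := congrFun (HJ.comm.mp (comm_of_sq h2 hx h1)) i
    have e2 := congrFun (HJ.sq_eq_one.mp (h2 _ h1)) i
    simp only [Pi.mul_apply, h3, one_mul, Pi.zero_apply] at e1 e2
    simp [e1, e2]
  · simpa using (z2_cases (x.v i)).resolve_right fun e => h ⟨x, hx, e⟩

variable [DecidableEq κ]

/-- the basis vectors -/
abbrev δ (i : κ) : κ → ZMod 2 := Pi.single i 1

/-- the flip in block `i` -/
abbrev eq' (i : κ) : HJ κ := ⟨0, δ i, 0⟩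

/-- the swap in block `i` -/
abbrev sq' (i : κ) : HJ κ := ⟨0, 0, δ i⟩

theorem δ_inj {i j : κ} (h : δ i = δ j) : i = j := by
  by_contra hij
  simpa [hij] using congrFun h i

theorem δ_ne (i : κ) : δ i ≠ 0 := fun h => by simpa using congrFun h i

theorem mul_δ (v : κ → ZMod 2) (i : κ) :
    v i = 0 ∧ v * δ i = 0 ∨ v i = 1 ∧ v * δ i = δ i := by
  rcases z2_cases (v i) with h | h
  · exact Or.inl ⟨h, funext fun j => by by_cases hj : j = i <;> simp [hj, h]⟩
  · exact Or.inr ⟨h, funext fun j => by by_cases hj : j = i <;> simp [hj, h]⟩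

theorem mul_δ_zero {v : κ → ZMod 2} {i : κ} (h : v i = 0) : v * δ i = 0 :=
  ((mul_δ v i).resolve_right (by simp [h])).2

theorem mul_δ_one {v : κ → ZMod 2} {i : κ} (h : v i = 1) : v * δ i = δ i :=
  ((mul_δ v i).resolve_left (by simp [h])).2

theorem eq'_conj (i : κ) (x : HJ κ) : eq' i * x * (eq' i)⁻¹ = x * zq (x.v * δ i) := by
  rw [HJ.conj, mul_zq]; simp

theorem sq'_conj (i : κ) (x : HJ κ) : sq' i * x * (sq' i)⁻¹ = x * zq (x.d * δ i) := by
  rw [HJ.conj, mul_zq]; simp [mul_comm]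

theorem conj_eq' (i : κ) (x : HJ κ) : x * eq' i * x⁻¹ = eq' i * zq (x.v * δ i) := by
  rw [HJ.conj, mul_zq]; simp

theorem conj_sq' (i : κ) (x : HJ κ) : x * sq' i * x⁻¹ = sq' i * zq (x.d * δ i) := by
  rw [HJ.conj, mul_zq]; simp [mul_comm]

theorem eq'_tv (i : κ) (x : HJ κ) :
    eq' i * x * (eq' i)⁻¹ = x ∨ eq' i * x * (eq' i)⁻¹ = x * zq (δ i) := by
  rw [eq'_conj]
  rcases mul_δ x.v i with ⟨-, h⟩ | ⟨-, h⟩ <;> simp [h, zq_zero]

theorem sq'_tv (i : κ) (x : HJ κ) :
    sq' i * x * (sq' i)⁻¹ = x ∨ sq' i * x * (sq' i)⁻¹ = x * zq (δ i) := by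
  rw [sq'_conj]
  rcases mul_δ x.d i with ⟨-, h⟩ | ⟨-, h⟩ <;> simp [h, zq_zero]

theorem eq'_mem {β : κ → ZMod 2} {i : κ} (h : β i = 0) : eq' i ∈ HB β :=
  mem_HB.mpr fun j => ⟨fun hj => Pi.single_eq_of_ne (by rintro rfl; simp [h] at hj) _, fun _ => rfl⟩

theorem sq'_mem {β : κ → ZMod 2} {i : κ} (h : β i = 1) : sq' i ∈ HB β :=
  mem_HB.mpr fun j => ⟨fun _ => rfl, fun hj => Pi.single_eq_of_ne (by rintro rfl; simp [h] at hj) _⟩

theorem zq_δ_ne (i : κ) : zq (δ i) ≠ 1 := fun h => δ_ne i (congrArg HJ.a h)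

theorem δ_comp (π : Perm κ) (i : κ) : δ i ∘ ⇑π⁻¹ = δ (π i) := by
  funext j
  simp [Pi.single_apply, Equiv.symm_apply_eq]

omit [DecidableEq κ] in
/-- an abelian permutation group has few fixed vectors -/
theorem card_mul_fix_le [Fintype κ] (X : Subgroup (Perm κ)) (hX : ∀ x ∈ X, ∀ y ∈ X, x * y = y * x) :
    Nat.card X * Nat.card {a : κ → ZMod 2 // ∀ x ∈ X, ∀ i, a (x i) = a i} ≤ 2 ^ Fintype.card κ := by
  classical
  let o : κ → κ := fun q => (Quotient.mk (MulAction.orbitRel X κ) q).out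
  have ho : ∀ q, ∃ x ∈ X, x (o q) = q := fun q => by
    obtain ⟨x, hx⟩ := (MulAction.orbitRel X κ).symm (Quotient.mk_out (s := MulAction.orbitRel X κ) q)
    exact ⟨x, x.2, hx⟩
  have ho' : ∀ x ∈ X, ∀ q, o (x q) = o q := fun x hx q =>
    congrArg Quotient.out (Quotient.sound (s := MulAction.orbitRel X κ) ⟨⟨x, hx⟩, rfl⟩)
  have hoo : ∀ q, o (o q) = o q := fun q => by
    obtain ⟨x, hx, e⟩ := ho q
    rw [← ho' x hx, e]
  let f : X × {a : κ → ZMod 2 // ∀ x ∈ X, ∀ i, a (x i) = a i} → κ → ZMod 2 := fun p q =>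
    p.2.1 q + if q = (p.1 : Perm κ) (o q) ∧ q ≠ o q then 1 else 0
  have hf : Function.Injective f := by
    rintro ⟨x, a⟩ ⟨y, b⟩ h
    have hab : a = b := Subtype.ext (funext fun q => by
      obtain ⟨z, hz, e⟩ := ho q
      have := congrFun h (o q)
      simp only [f, hoo, ne_eq, not_true, and_false, if_false, add_zero] at this
      rw [← e, a.2 z hz, b.2 z hz, this])
    subst hab
    have key : ∀ x y : X, f (x, a) = f (y, a) → ∀ q, (x : Perm κ) (o q) ≠ o q →
        (x : Perm κ) (o q) = (y : Perm κ) (o q) := fun x y h q hq => by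
      have := congrFun h ((x : Perm κ) (o q))
      simp only [f, ho' x x.2, hoo, add_right_inj, ne_eq, hq, not_false_eq_true, and_true,
        if_true] at this
      by_contra hne
      simp [hne] at this
    refine Prod.ext (Subtype.ext (Equiv.ext fun q => ?_)) rfl
    obtain ⟨z, hz, e⟩ := ho q
    have h1 : (x : Perm κ) (o q) = (y : Perm κ) (o q) := by
      by_cases hx : (x : Perm κ) (o q) = o q
      · by_cases hy : (y : Perm κ) (o q) = o q
        · rw [hx, hy]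
        · exact (key y x h.symm q hy).symm
      · exact key x y h q hx
    change (x : Perm κ) q = (y : Perm κ) q
    rw [← e, ← Perm.mul_apply, hX _ x.2 _ hz, Perm.mul_apply, h1, ← Perm.mul_apply,
      ← hX _ y.2 _ hz, Perm.mul_apply]
  have := Nat.card_le_card_of_injective f hf
  rwa [Nat.card_prod, Nat.card_fun, Nat.card_zmod, Nat.card_eq_fintype_card (α := κ)] at this

/-- the weight of a vector -/
def wt {κ : Type} [Fintype κ] (a : κ → ZMod 2) : ℕ := (Finset.univ.filter fun i => a i = 1).card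

omit [DecidableEq κ] in
theorem wt_comp [Fintype κ] (a : κ → ZMod 2) (π : Perm κ) : wt (a ∘ ⇑π) = wt a :=
  Finset.card_bijective π π.bijective (by simp)

omit [DecidableEq κ] in
theorem exists_comp_of_wt [Fintype κ] {a b : κ → ZMod 2} (h : wt a = wt b) :
    ∃ π : Perm κ, b = a ∘ ⇑π⁻¹ := by
  classical
  have e : {i // a i = 1} ≃ {i // b i = 1} :=
    Fintype.equivOfCardEq (by simpa [Fintype.card_subtype, wt] using h)
  refine ⟨e.extendSubtype, funext fun j => ?_⟩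
  obtain ⟨i, rfl⟩ := e.extendSubtype.surjective j
  simp only [Function.comp_apply, Perm.coe_inv, symm_apply_apply]
  by_cases hi : a i = 1
  · rw [hi]; exact e.extendSubtype_mem i hi
  · rw [(z2_cases _).resolve_right hi]
    exact (z2_cases _).resolve_right (e.extendSubtype_not_mem i hi)

theorem wt_δ [Fintype κ] (i : κ) : wt (δ i) = 1 :=
  Finset.card_eq_one.mpr ⟨i, by ext j; by_cases h : j = i <;> simp [h]⟩

theorem eq_δ_of_wt [Fintype κ] {a : κ → ZMod 2} (h : wt a = 1) : ∃ i, a = δ i := by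
  obtain ⟨i, hi⟩ := Finset.card_eq_one.mp h
  refine ⟨i, funext fun j => ?_⟩
  have := Finset.ext_iff.mp hi j
  by_cases hj : j = i
  · subst hj; simpa using this
  · simpa [hj] using (z2_cases (a j)).resolve_right (by simpa [hj] using this)

theorem wt_add_δ [Fintype κ] {a : κ → ZMod 2} {i : κ} (h : a i = 0) : wt (a + δ i) = wt a + 1 := by
  rw [wt, wt, ← Finset.card_insert_of_notMem (a := i) (by simp [h])]
  congr 1
  ext j
  by_cases hj : j = i <;> simp [hj, h]

omit [DecidableEq κ] in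
theorem wt_cast [Fintype κ] (a : κ → ZMod 2) : (wt a : ZMod 2) = ∑ i, a i := by
  rw [wt, Finset.card_filter, Nat.cast_sum]
  refine Finset.sum_congr rfl fun i _ => ?_
  rcases z2_cases (a i) with h | h <;> simp [h]

end Cfsg.Lib.Alt
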