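import Mathlib

/-!
The outer automorphism of the symmetric group of degree six.
-/

set_option autoImplicit false

namespace Cfsg.Lib.Alt

open Equiv Subgroup

/-- the six synthemic totals -/
def tot : Fin 6 → Fin 5 → Fin 6 → Fin 6 :=
  ![![![1, 0, 4, 5, 2, 3], ![2, 3, 0, 1, 5, 4], ![3, 4, 5, 0, 1, 2], ![4, 5, 3, 2, 0, 1], ![5, 2, 1, 4, 3, 0]],
  ![![1, 0, 5, 4, 3, 2], ![2, 3, 0, 1, 5, 4], ![3, 5, 4, 0, 2, 1], ![4, 2, 1, 5, 0, 3], ![5, 4, 3, 2, 1, 0]],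
  ![![1, 0, 5, 4, 3, 2], ![2, 4, 0, 5, 1, 3], ![3, 2, 1, 0, 5, 4], ![4, 5, 3, 2, 0, 1], ![5, 3, 4, 1, 2, 0]],
  ![![1, 0, 4, 5, 2, 3], ![2, 5, 0, 4, 3, 1], ![3, 2, 1, 0, 5, 4], ![4, 3, 5, 1, 0, 2], ![5, 4, 3, 2, 1, 0]],
  ![![1, 0, 3, 2, 5, 4], ![2, 4, 0, 5, 1, 3], ![3, 5, 4, 0, 2, 1], ![4, 3, 5, 1, 0, 2], ![5, 2, 1, 4, 3, 0]],
  ![![1, 0, 3, 2, 5, 4], ![2, 5, 0, 4, 3, 1], ![3, 4, 5, 0, 1, 2], ![4, 2, 1, 5, 0, 3], ![5, 3, 4, 1, 2, 0]]]

/-- `g` maps the total `i` to the total `j` -/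
def TRel (g : Perm (Fin 6)) (i j : Fin 6) : Prop := ∀ a, ∃ b, ∀ x, tot j b (g x) = g (tot i a x)

instance (g : Perm (Fin 6)) (i j : Fin 6) : Decidable (TRel g i j) := by unfold TRel; infer_instance

theorem TRel.mul {g h : Perm (Fin 6)} {i j k : Fin 6} (h1 : TRel h i j) (h2 : TRel g j k) :
    TRel (g * h) i k := fun a => by
  obtain ⟨b, hb⟩ := h1 a
  obtain ⟨c, hc⟩ := h2 b
  exact ⟨c, fun x => by rw [Perm.mul_apply, hc, hb, Perm.mul_apply]⟩

theorem TRel.unique {g : Perm (Fin 6)} {i j j' : Fin 6} (h1 : TRel g i j) (h2 : TRel g i j') :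
    j = j' := by
  have k1 : ∀ j j' b0 b0' b1 b1', tot j b0 = tot j' b0' → tot j b1 = tot j' b1' → b0 = b1 ∨ j = j' := by
    decide +kernel
  have k2 : ∀ i, tot i 0 0 ≠ tot i 1 0 := by decide
  obtain ⟨b0, e0⟩ := h1 0
  obtain ⟨b1, e1⟩ := h1 1
  obtain ⟨b0', e0'⟩ := h2 0
  obtain ⟨b1', e1'⟩ := h2 1
  refine (k1 j j' b0 b0' b1 b1' (funext fun x => ?_) (funext fun x => ?_)).resolve_left ?_
  · obtain ⟨x, rfl⟩ := g.surjective x
    rw [e0, e0']
  · obtain ⟨x, rfl⟩ := g.surjective x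
    rw [e1, e1']
  · rintro rfl
    exact k2 i (g.injective ((e0 0).symm.trans (e1 0)))

theorem exists_trel (g : Perm (Fin 6)) : ∀ i, ∃ j, TRel g i j := by
  induction g using Perm.swap_induction_on with
  | one => exact fun i => ⟨i, fun a => ⟨a, fun _ => rfl⟩⟩
  | swap_mul g a b _ ih =>
    intro i
    have : ∀ a b i : Fin 6, ∃ j, TRel (swap a b) i j := by decide +kernel
    obtain ⟨j, hj⟩ := ih i
    obtain ⟨k, hk⟩ := this a b j
    exact ⟨k, hj.mul hk⟩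

theorem exists_outer : ∃ ω : Perm (Fin 6) →* Perm (Fin 6), Function.Injective ω ∧
    (∀ g, Perm.sign (ω g) = Perm.sign g) ∧ ω (swap 4 5) = swap 0 1 * swap 2 3 * swap 4 5 ∧
    ω (swap 0 1 * swap 4 5) = swap 0 2 * swap 1 3 ∧
    ω (swap 2 3 * swap 4 5) = swap 0 2 * swap 1 3 * (swap 0 1 * swap 2 3) := by
  choose F hF using exists_trel
  let act : MulAction (Perm (Fin 6)) (Fin 6) :=
    { smul := F
      one_smul := fun i => (hF 1 i).unique fun a => ⟨a, fun _ => rfl⟩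
      mul_smul := fun g h i => (hF (g * h) i).unique ((hF h i).mul (hF g _)) }
  let ω := @MulAction.toPermHom _ _ _ act
  have key : ∀ g σ : Perm (Fin 6), (∀ i, TRel g i (σ i)) → ω g = σ := fun g σ h =>
    Equiv.ext fun i => (hF g i).unique (h i)
  have e1 : ω (swap 4 5) = swap 0 1 * swap 2 3 * swap 4 5 := key _ _ (by decide +kernel)
  have e2 : ω (swap 0 1 * swap 4 5) = swap 0 2 * swap 1 3 := key _ _ (by decide +kernel)
  have hs : ∀ g, Perm.sign (ω g) = Perm.sign g := fun g => by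
    induction g using Perm.swap_induction_on with
    | one => simp
    | swap_mul g a b hab ih =>
      obtain ⟨c, hc⟩ := isConj_iff.mp (Perm.isConj_swap (show (4 : Fin 6) ≠ 5 by decide) hab)
      rw [map_mul, map_mul, map_mul, ih, ← hc]
      simp only [map_mul, map_inv, e1]
      simp [mul_comm]
  refine ⟨ω, (injective_iff_map_eq_one ω).mpr fun g hg => ?_, hs, e1, e2, key _ _ (by decide +kernel)⟩
  have hA : g ∈ alternatingGroup (Fin 6) := by
    rw [Perm.mem_alternatingGroup, ← hs, hg, map_one]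
  have := alternatingGroup.isSimpleGroup (α := Fin 6) (by simp)
  rcases this.eq_bot_or_eq_top_of_normal (ω.ker.subgroupOf (alternatingGroup (Fin 6))) inferInstance
    with h | h
  · exact congrArg Subtype.val (h.le (show (⟨g, hA⟩ : alternatingGroup (Fin 6)) ∈ _ from hg))
  · have h1 : ω (swap 0 1 * swap 4 5) = 1 :=
      h.ge (mem_top (⟨_, Perm.mem_alternatingGroup.mpr (by decide)⟩ : alternatingGroup (Fin 6)))
    rw [e2] at h1
    exact absurd h1 (by decide)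

end Cfsg.Lib.Alt
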